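import Mathlib
import Cfsg.Prelude.Def_Local
import Cfsg.Agent.H1.Basic

/-! Closure properties of `p`-solvable groups. -/

set_option autoImplicit false
set_option maxHeartbeats 400000

namespace Cfsg.Agent.L

variable {G G' : Type*} [Group G] [Group G'] {p : ℕ}

/-- A power of `p` or a number prime to `p`. -/
def PGood (p n : ℕ) : Prop := (∃ m, n = p ^ m) ∨ n.Coprime p

theorem PGood.of_dvd [Fact p.Prime] {n k : ℕ} (h : PGood p n) (hk : k ∣ n) : PGood p k := by
  rcases h with ⟨m, rfl⟩ | h
  · obtain ⟨j, -, hj⟩ := (Nat.dvd_prime_pow Fact.out).1 hk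
    exact Or.inl ⟨j, hj⟩
  · exact Or.inr (Nat.Coprime.coprime_dvd_left hk h)

theorem relIndex_dvd_of_le_right {A B C : Subgroup G} [A.Normal] (h : B ≤ C) :
    A.relIndex B ∣ A.relIndex C := by
  rw [← Subgroup.relIndex_subgroupOf h]
  exact Subgroup.relIndex_dvd_index_of_normal _ _

theorem isPSolvable_of_injective [Fact p.Prime] (f : G' →* G) (hf : Function.Injective f)
    (h : IsPSolvable p G) : IsPSolvable p G' := by
  obtain ⟨n, H, h0, hl, hm, hn, hs⟩ := h
  refine ⟨n, fun i => (H i).comap f, by simp only [h0]; exact (MonoidHom.ker_eq_bot_iff f).2 hf,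
    by simp only [hl, Subgroup.comap_top], fun i j hij => Subgroup.comap_mono (hm hij),
    fun i => (hn i).comap f, fun i => PGood.of_dvd (hs i) ?_⟩
  haveI := hn i.castSucc
  rw [Subgroup.relIndex_comap]
  exact relIndex_dvd_of_le_right (Subgroup.map_comap_le _ _)

theorem isPSolvable_subgroup [Fact p.Prime] (h : IsPSolvable p G) (H : Subgroup G) :
    IsPSolvable p H := isPSolvable_of_injective H.subtype H.subtype_injective h

theorem isPSolvable_of_surjective [Fact p.Prime] (f : G →* G') (hf : Function.Surjective f)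
    (h : IsPSolvable p G) : IsPSolvable p G' := by
  obtain ⟨n, H, h0, hl, hm, hn, hs⟩ := h
  refine ⟨n, fun i => (H i).map f, by simp only [h0, Subgroup.map_bot],
    by simp only [hl]; exact Subgroup.map_top_of_surjective f hf,
    fun i j hij => Subgroup.map_mono (hm hij),
    fun i => (hn i).map f hf, fun i => PGood.of_dvd (hs i) ?_⟩
  rw [← Subgroup.relIndex_comap]
  exact Subgroup.relIndex_dvd_of_le_left _ (Subgroup.le_comap_map _ _)

theorem isPSolvable_of_equiv [Fact p.Prime] (e : G ≃* G') (h : IsPSolvable p G) :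
    IsPSolvable p G' := isPSolvable_of_surjective e.toMonoidHom e.surjective h

theorem isPSolvable_of_good (h : PGood p (Nat.card G)) : IsPSolvable p G := by
  refine ⟨1, ![⊥, ⊤], rfl, rfl, ?_, ?_, ?_⟩
  · intro i j hij
    fin_cases i <;> fin_cases j <;> simp_all
  · intro i
    fin_cases i
    · exact Subgroup.normal_bot
    · exact Subgroup.normal_top
  · intro i
    fin_cases i
    simpa [PGood] using h

theorem isPSolvable_of_isPGroup [Fact p.Prime] [Finite G] (h : IsPGroup p G) : IsPSolvable p G :=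
  isPSolvable_of_good (Or.inl h.exists_card_eq)

theorem core_ne_bot_of_isPSolvable [Fact p.Prime] [Finite G] [Nontrivial G] (h : IsPSolvable p G) :
    pCore p G ≠ ⊥ ∨ pPrimeCore p G ≠ ⊥ := by
  obtain ⟨n, H, h0, hl, hm, hn, hs⟩ := h
  by_contra hc
  push Not at hc
  have key : ∀ i, H i = ⊥ := by
    intro i
    induction i using Fin.induction with
    | zero => exact h0
    | succ i ih =>
      have h1 := hs i
      rw [ih, Subgroup.relIndex_bot_left] at h1
      rw [eq_bot_iff]
      rcases h1 with ⟨m, hm⟩ | h1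
      · exact hc.1 ▸ H1.le_pCore (hn _) (IsPGroup.of_card hm)
      · exact hc.2 ▸ H1.le_pPrimeCore (hn _) h1
  exact bot_ne_top ((key _).symm.trans hl)

theorem isPSolvable_of_step [Finite G]
    (h : ∀ N : Subgroup G, N.Normal → N ≠ ⊤ → ∃ M : Subgroup G, M.Normal ∧ N < M ∧
      PGood p (N.relIndex M)) : IsPSolvable p G := by
  have key : ∀ (k : ℕ) (N : Subgroup G), N.Normal → N.index = k →
      ∃ (n : ℕ) (H : Fin (n + 1) → Subgroup G), H 0 = N ∧ H (Fin.last n) = ⊤ ∧ Monotone H ∧
        (∀ i, (H i).Normal) ∧ ∀ i : Fin n, PGood p ((H i.castSucc).relIndex (H i.succ)) := by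
    intro k
    induction k using Nat.strong_induction_on with
    | _ k ih =>
    intro N hN hk
    by_cases hN' : N = ⊤
    · exact ⟨0, fun _ => N, rfl, hN', monotone_const, fun _ => hN, fun i => i.elim0⟩
    obtain ⟨M, hM, hlt, hg⟩ := h N hN hN'
    obtain ⟨n, H, h0, hl, hm, hn, hs⟩ := ih _ (hk ▸ Subgroup.index_strictAnti hlt) M hM rfl
    refine ⟨n + 1, Fin.cons N H, rfl, hl, ?_, ?_, ?_⟩
    · refine Fin.monotone_iff_le_succ.2 fun i => ?_
      refine Fin.cases ?_ (fun j => ?_) i
      · change N ≤ H 0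
        rw [h0]; exact hlt.le
      · exact hm (Fin.castSucc_le_succ j)
    · exact fun i => Fin.cases hN hn i
    · intro i
      refine Fin.cases ?_ (fun j => hs j) i
      change PGood p (N.relIndex (H 0))
      rw [h0]; exact hg
  exact key _ ⊥ inferInstance rfl

theorem isPSolvable_of_quotients [Fact p.Prime] [Finite G]
    (h : ∀ (N : Subgroup G) [N.Normal], N ≠ ⊤ →
      ∃ M : Subgroup (G ⧸ N), M.Normal ∧ M ≠ ⊥ ∧ PGood p (Nat.card M)) : IsPSolvable p G := by
  refine isPSolvable_of_step fun N hN hne => ?_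
  obtain ⟨M, h1, h2, h3⟩ := h N hne
  have hle : N ≤ M.comap (QuotientGroup.mk' N) := by
    conv_lhs => rw [← QuotientGroup.ker_mk' N]
    exact Subgroup.ker_le_comap _ _
  have hmap := Subgroup.map_comap_eq_self_of_surjective (QuotientGroup.mk'_surjective N) M
  refine ⟨M.comap (QuotientGroup.mk' N), inferInstance, lt_of_le_of_ne hle fun he => h2 ?_, ?_⟩
  · rw [← hmap, ← he, QuotientGroup.map_mk'_self]
  · have : N.relIndex (M.comap (QuotientGroup.mk' N)) = Nat.card M := by
      conv_lhs => lhs; rw [← QuotientGroup.ker_mk' N, ← MonoidHom.comap_bot]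
      rw [Subgroup.relIndex_comap, hmap, Subgroup.relIndex_bot_left]
    rwa [this]

theorem exists_good_normal [Fact p.Prime] [Finite G] {N : Subgroup G} [N.Normal] (hN : N ≠ ⊥)
    (h : IsPSolvable p N) : ∃ M : Subgroup G, M.Normal ∧ M ≠ ⊥ ∧ M ≤ N ∧ PGood p (Nat.card M) := by
  haveI := (Subgroup.nontrivial_iff_ne_bot N).2 hN
  rcases core_ne_bot_of_isPSolvable h with h1 | h1
  · refine ⟨(pCore p N).map N.subtype, inferInstance, ?_, Subgroup.map_subtype_le _,
      Or.inl ((H1.pCore_isPGroup p N).map _).exists_card_eq⟩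
    rwa [Ne, Subgroup.map_eq_bot_iff_of_injective _ N.subtype_injective]
  · refine ⟨(pPrimeCore p N).map N.subtype, inferInstance, ?_, Subgroup.map_subtype_le _,
      Or.inr ?_⟩
    · rwa [Ne, Subgroup.map_eq_bot_iff_of_injective _ N.subtype_injective]
    · rw [Subgroup.card_map_of_injective N.subtype_injective]
      exact H1.pPrimeCore_coprime p N

/-- An extension of a `p`-solvable group by a `p`-solvable group is `p`-solvable. -/
theorem isPSolvable_of_ker_range [Fact p.Prime] [Finite G] (f : G →* G')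
    (h1 : IsPSolvable p f.ker) (h2 : IsPSolvable p f.range) : IsPSolvable p G := by
  refine isPSolvable_of_quotients fun K _ hK => ?_
  haveI : (f.ker.map (QuotientGroup.mk' K)).Normal :=
    Subgroup.Normal.map inferInstance _ (QuotientGroup.mk'_surjective K)
  by_cases h : f.ker.map (QuotientGroup.mk' K) = ⊥
  · rw [Subgroup.map_eq_bot_iff, QuotientGroup.ker_mk'] at h
    have h3 : IsPSolvable p (G ⧸ K) :=
      isPSolvable_of_surjective (QuotientGroup.map f.ker K (MonoidHom.id G) h)
        (fun x => by obtain ⟨x, rfl⟩ := QuotientGroup.mk_surjective x; exact ⟨x, rfl⟩)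
        (isPSolvable_of_equiv (QuotientGroup.quotientKerEquivRange f).symm h2)
    haveI : Nontrivial (G ⧸ K) := QuotientGroup.nontrivial_iff.2 hK
    obtain ⟨M, h4, h5, -, h6⟩ := exists_good_normal (N := (⊤ : Subgroup (G ⧸ K))) top_ne_bot
      (isPSolvable_subgroup h3 _)
    exact ⟨M, h4, h5, h6⟩
  · obtain ⟨M, h4, h5, -, h6⟩ := exists_good_normal h
      (isPSolvable_of_surjective _ (MonoidHom.subgroupMap_surjective _ _) h1)
    exact ⟨M, h4, h5, h6⟩

theorem isPSolvable_of_normal [Fact p.Prime] [Finite G] (N : Subgroup G) [N.Normal]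
    (h1 : IsPSolvable p N) (h2 : IsPSolvable p (G ⧸ N)) : IsPSolvable p G :=
  isPSolvable_of_ker_range (QuotientGroup.mk' N) (by rwa [QuotientGroup.ker_mk'])
    (isPSolvable_subgroup h2 _)

theorem isPSolvable_of_normal_index [Fact p.Prime] [Finite G] (N : Subgroup G) [N.Normal]
    (h1 : IsPSolvable p N) (h2 : PGood p N.index) : IsPSolvable p G :=
  isPSolvable_of_normal N h1 (isPSolvable_of_good h2)

theorem exists_normal_good_index [Nontrivial G] (h : IsPSolvable p G) :
    ∃ N : Subgroup G, N.Normal ∧ N ≠ ⊤ ∧ PGood p N.index := by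
  obtain ⟨n, H, h0, hl, hm, hn, hs⟩ := h
  by_contra hc
  push Not at hc
  have key : ∀ i, H i = ⊤ := by
    intro i
    induction i using Fin.reverseInduction with
    | last => exact hl
    | cast i ih =>
      have h1 := hs i
      rw [ih, Subgroup.relIndex_top_right] at h1
      by_contra hne
      exact hc _ (hn _) hne h1
  exact bot_ne_top (h0.symm.trans (key _))

end Cfsg.Agent.L
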