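import Mathlib
import Cfsg.Agent.L.PSolv
import Cfsg.Agent.L.Constr
import Cfsg.Agent.H3.Quot

/-! `p`-solvable groups and fusion systems. -/

set_option autoImplicit false
set_option maxHeartbeats 400000

namespace Cfsg.Agent.L

open Equiv Cfsg.Fus Cfsg.FusionSystem

section
variable {G : Type*} [Group G] {p : ℕ}

theorem range_conjNormal_eq (Q : Subgroup G) [Q.Normal] :
    (MulAut.conjNormal : G →* MulAut Q).range = autInducedBy ⊤ Q := by
  ext α
  rw [mem_autInducedBy_iff]
  constructor
  · rintro ⟨g, rfl⟩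
    exact ⟨g, trivial, fun x => rfl⟩
  · rintro ⟨g, -, h⟩
    exact ⟨g, MulEquiv.ext fun x => Subtype.ext (h x).symm⟩

theorem ker_conjNormal_eq (Q : Subgroup G) [Q.Normal] :
    (MulAut.conjNormal : G →* MulAut Q).ker = Subgroup.centralizer (Q : Set G) := by
  ext g
  rw [MonoidHom.mem_ker, Subgroup.mem_centralizer_iff]
  constructor
  · intro h x hx
    have := congrArg (fun a : MulAut Q => ((a ⟨x, hx⟩ : Q) : G)) h
    simp only [MulAut.conjNormal_apply, MulAut.one_apply] at this
    rw [← mul_inv_eq_iff_eq_mul.1 this]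
  · intro h
    ext x
    simp only [MulAut.conjNormal_apply, MulAut.one_apply]
    rw [← h x x.2, mul_inv_cancel_right]

variable [Fact p.Prime] [Finite G]

theorem isPSolvable_iff_aut {T : Subgroup G} (hT : IsSylowIn p T ⊤)
    (hC : Subgroup.centralizer ((pCore p G : Subgroup G) : Set G) ≤ pCore p G) :
    IsPSolvable p G ↔ IsPSolvable p ((groupFusionSystem T).autGroup (pCore p G)) := by
  rw [groupFusionSystem_eq, autGroup_ofSubgroup _ (pCore_le_sylowIn hT), ← range_conjNormal_eq]
  refine ⟨isPSolvable_of_surjective _ (MonoidHom.rangeRestrict_surjective _), fun h => ?_⟩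
  refine isPSolvable_of_ker_range _ ?_ h
  rw [ker_conjNormal_eq]
  exact isPSolvable_of_isPGroup ((H1.pCore_isPGroup p G).to_le hC)

end

variable {Ω G : Type*} [Group Ω] [Group G] {S : Subgroup Ω} {F : FusionSystem S} {p : ℕ}
  [Fact p.Prime] {ι : S →* G}

theorem model_isPSolvable_iff (h : F.IsModel p G ι) :
    IsPSolvable p G ↔ IsPSolvable p (F.autGroup F.core) := by
  haveI := h.1
  obtain ⟨θ', t⟩ := exists_transp_of_realized h.2.1
  have hle : F.core ≤ S := sSup_le fun Q hQ => hQ.1
  have e := t.autGroupEquiv hle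
  rw [model_img_core h] at e
  rw [isPSolvable_iff_aut (model_isSylowIn h) h.2.2.2]
  exact ⟨isPSolvable_of_equiv e.symm, isPSolvable_of_equiv e⟩

theorem isModel_quotient_of_isPSolvable [Finite G] (hG : IsPSolvable p G) (h : F.IsRealizedBy ι)
    (hS : IsSylowIn p ι.range ⊤) :
    F.IsModel p (G ⧸ pPrimeCore p G) ((QuotientGroup.mk' _).comp ι) := by
  have hN : ι.range ⊓ pPrimeCore p G = ⊥ := by
    obtain ⟨n, hn⟩ := hS.isPGroup.exists_card_eq
    refine Subgroup.inf_eq_bot_of_coprime ?_
    rw [hn]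
    exact (Nat.Coprime.pow_right n (H1.pPrimeCore_coprime p G)).symm
  obtain ⟨h1, h2⟩ := realized_quotient h hS _ hN
  refine ⟨inferInstance, h1, ?_, H3.centralizer_pCore_le_of_isPSolvable
    (isPSolvable_of_surjective _ (QuotientGroup.mk'_surjective _) hG) ?_⟩
  · exact (isSylowIn_top_iff).1 h2
  · exact H1.pPrimeCore_quotient_pPrimeCore p G

end Cfsg.Agent.L
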